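import Cfsg.Agent.Lib.Helper15.TypeP
import Cfsg.Agent.S4446

/-!
# `L = K ⋊ W₁`, part 2: the characters `μ_ω`
-/

set_option autoImplicit false
set_option linter.unusedSectionVars false

namespace Cfsg.Agent.Lib.Helper15

open Cfsg Cfsg.Agent.Lib
open scoped ComplexConjugate Pointwise

section typeP2

variable {Γ : Type*} [Group Γ] [Fintype Γ] {G S C : Subgroup Γ}

namespace CycSetup

theorem inf_eq_bot (h : CycSetup G S C) : G ⊓ S = ⊥ :=
  disjoint_iff.1 (Subgroup.disjoint_of_coprime_natCard h.hcop)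

theorem exists_proj (h : CycSetup G S C) :
    ∃ P : Γ →* S, (∀ g ∈ G, P g = 1) ∧ ∀ s : S, P (s : Γ) = s := by
  have := h.normal
  let φ : S →* Γ ⧸ G := (QuotientGroup.mk' G).comp S.subtype
  have hφ : Function.Bijective φ := by
    constructor
    · rw [injective_iff_map_eq_one]
      intro a ha
      have h1 : (a : Γ) ∈ G := (QuotientGroup.eq_one_iff (a : Γ)).1 ha
      have h2 : (a : Γ) ∈ G ⊓ S := ⟨h1, a.2⟩
      rw [h.inf_eq_bot, Subgroup.mem_bot] at h2
      exact Subtype.ext h2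
    · intro x
      obtain ⟨g, rfl⟩ := QuotientGroup.mk_surjective x
      obtain ⟨k, hk, s, hs, rfl⟩ := h.decomp g
      refine ⟨⟨s, hs⟩, ?_⟩
      change (QuotientGroup.mk s : Γ ⧸ G) = QuotientGroup.mk (k * s)
      rw [QuotientGroup.mk_mul, (QuotientGroup.eq_one_iff k).2 hk, one_mul]
  let e : S ≃* Γ ⧸ G := MulEquiv.ofBijective φ hφ
  refine ⟨e.symm.toMonoidHom.comp (QuotientGroup.mk' G), ?_, ?_⟩
  · intro g hg
    change e.symm (QuotientGroup.mk g) = 1
    rw [(QuotientGroup.eq_one_iff g).2 hg, map_one]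
  · intro s
    change e.symm (QuotientGroup.mk (s : Γ)) = s
    rw [MulEquiv.symm_apply_eq]
    rfl

theorem mem_sup_iff (h : CycSetup G S C) (w : Γ) :
    w ∈ S ⊔ C ↔ ∃ c ∈ C, ∃ x ∈ S, w = c * x := by
  have h1 := MonoidHom.noncommCoprod_range C.subtype S.subtype (fun a b => h.comm a.2 b.2)
  rw [Subgroup.range_subtype, Subgroup.range_subtype] at h1
  rw [sup_comm, ← h1, MonoidHom.mem_range]
  constructor
  · rintro ⟨⟨c, x⟩, rfl⟩
    exact ⟨c, c.2, x, x.2, rfl⟩
  · rintro ⟨c, hc, x, hx, rfl⟩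
    exact ⟨(⟨c, hc⟩, ⟨x, hx⟩), rfl⟩

theorem eq_one_of_mul_mem (h : CycSetup G S C) {c x : Γ} (hc : c ∈ C) (hx : x ∈ S)
    (hcx : c * x ∈ C) : x = 1 := by
  have h1 : x ∈ C := by
    have := C.mul_mem (C.inv_mem hc) hcx
    rwa [inv_mul_cancel_left] at this
  have h2 : x ∈ G ⊓ S := ⟨h.mem_G h1, hx⟩
  rwa [h.inf_eq_bot, Subgroup.mem_bot] at h2

/-- the centraliser of `c x` with `x ≠ 1` -/
theorem centralizer_mul (h : CycSetup G S C)
    (hfpf : ∀ x ∈ S, x ≠ 1 → G ⊓ Subgroup.centralizer ({x} : Set Γ) = C)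
    (hS : ∀ a ∈ S, ∀ b ∈ S, a * b = b * a) (hCc : ∀ a ∈ C, ∀ b ∈ C, a * b = b * a)
    {c x : Γ} (hc : c ∈ C) (hx : x ∈ S) (hx1 : x ≠ 1) :
    Subgroup.centralizer ({c * x} : Set Γ) = S ⊔ C := by
  apply le_antisymm
  · intro g hg
    rw [Subgroup.mem_centralizer_iff] at hg
    have hg1 : Commute (c * x) g := hg _ rfl
    -- a power of `c x` is `x`
    obtain ⟨k, hk0, hk1⟩ := Nat.chineseRemainder h.hcop 0 1
    have hpow : (c * x) ^ k = x := by
      rw [(show Commute c x from h.comm hc hx).mul_pow]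
      have h1 : c ^ k = 1 := by
        rw [← orderOf_dvd_iff_pow_eq_one]
        have h2 : orderOf c ∣ Nat.card G := by
          have := orderOf_dvd_natCard (⟨c, h.mem_G hc⟩ : G)
          rwa [← Subgroup.orderOf_coe] at this
        exact h2.trans ((Nat.modEq_zero_iff_dvd).1 hk0)
      have h2 : x ^ k = x := by
        have h3 : x ^ k = x ^ 1 := by
          rw [pow_eq_pow_iff_modEq]
          apply hk1.of_dvd
          have := orderOf_dvd_natCard (⟨x, hx⟩ : S)
          rwa [← Subgroup.orderOf_coe] at this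
        rw [h3, pow_one]
      rw [h1, h2, one_mul]
    have hg2 : Commute x g := hpow ▸ hg1.pow_left k
    obtain ⟨k', hk', y, hy, rfl⟩ := h.decomp g
    have hxy : Commute x y := hS x hx y hy
    have hxk : Commute x k' := by
      have h3 := hg2.mul_right hxy.inv_right
      rwa [mul_inv_cancel_right] at h3
    have hk'C : k' ∈ C := by
      rw [← hfpf x hx hx1]
      refine ⟨hk', ?_⟩
      apply Subgroup.mem_centralizer_iff.2
      intro z hz
      rw [Set.mem_singleton_iff.1 hz]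
      exact hxk
    exact (h.mem_sup_iff _).2 ⟨k', hk'C, y, hy, rfl⟩
  · intro g hg
    obtain ⟨c', hc', x', hx', rfl⟩ := (h.mem_sup_iff g).1 hg
    rw [Subgroup.mem_centralizer_iff]
    intro z hz
    rw [Set.mem_singleton_iff.1 hz]
    have h1 : Commute c c' := hCc c hc c' hc'
    have h2 : Commute c x' := h.comm hc hx'
    have h3 : Commute x c' := (h.comm hc' hx).symm
    have h4 : Commute x x' := hS x hx x' hx'
    exact (h1.mul_right h2).mul_left (h3.mul_right h4)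

/-- the data attached to a linear character of `C`, for `|S|` odd -/
theorem typeP_data (h : CycSetup G S C) (hcyc : IsCyclic S)
    (hfpf : ∀ x ∈ S, x ≠ 1 → G ⊓ Subgroup.centralizer ({x} : Set Γ) = C)
    (hodd : Odd (Nat.card S)) (f₂ : C →* ℂˣ) :
    ∃ (X : Γ → ℂ) (ε : ℤ), IsCanon G S X ∧ (ε = 1 ∨ ε = -1) ∧
      (∀ c ∈ C, ∀ x ∈ S, x ≠ 1 → ∀ hc : c ∈ C, X (c * x) = (ε : ℂ) * (f₂ ⟨c, hc⟩ : ℂ)) ∧
      ∃ n : ℕ, X 1 = (Nat.card S : ℂ) * n + ε := by
  classical
  have := Fintype.ofFinite G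
  have := Fintype.ofFinite C
  have hCG : C ≤ G := fun c hc => h.mem_G hc
  obtain ⟨s, hs⟩ := S.isCyclic_iff_exists_zpowers_eq_top.mp hcyc
  obtain ⟨-, -, h3⟩ := Cfsg.Agent.S4446.result G S h.hnorm h.hcop h.htop hcyc C h.hC hCG
  obtain ⟨χ, χh, ε₀, hinv, hext, hdet, hε₀, hval⟩ := h3 ⟨toFn f₂, Helper74.isIrrCharacter_of_hom f₂⟩
  have hc : IsCanon G S (χh : Γ → ℂ) := by
    refine ⟨χh.2, ?_, hdet⟩
    rw [show (fun g : G => (χh : Γ → ℂ) g) = χ from funext hext]
    exact χ.2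
  obtain ⟨ε, μ, hε, hμ, hμ1, hμsq, hv, ϑ, hϑ, hres⟩ :=
    h.fpf_structure hfpf hc hs (Helper74.isIrrCharacter_of_hom f₂) hε₀ (fun c => hval c s hs)
  obtain ⟨f, rfl⟩ := exists_toFn hμ hμ1
  have hf1 : ∀ x : S, f x = 1 := by
    intro x
    have h1 : f x ^ 2 = 1 := by
      apply Units.ext
      have := hμsq x
      rw [toFn_apply] at this
      rw [sq]
      exact this
    have h2 : f x ^ Nat.card S = 1 := by
      rw [← map_pow, pow_card_eq_one', map_one]
    obtain ⟨m, hm⟩ := hodd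
    rw [hm, pow_succ, pow_mul, h1, one_pow, one_mul] at h2
    exact h2
  refine ⟨χh, ε, hc, hε, ?_, ?_⟩
  · intro c _ x hx hx1 hc'
    have := hv ⟨c, hc'⟩ ⟨x, hx⟩ (fun h0 => hx1 (congrArg Subtype.val h0))
    rw [toFn_apply, hf1] at this
    simpa using this
  · obtain ⟨n, hn⟩ := char_one_nat hϑ
    refine ⟨n, ?_⟩
    have := congrFun hres 1
    simp only [map_one, Units.val_one, mul_one, hn] at this
    exact this

end CycSetup

end typeP2

end Cfsg.Agent.Lib.Helper15
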